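import Groth.Agent.Dual.H336.GlueTot
import Groth.Prelude.Def_Dual3

/-!
# Strictly functorial systems of upper shrieks

* `sepOpens h`: the opens of `X` separated over `S`;
* `CanSys h W`: a strictly functorial system of upper shrieks of `W` over `sepOpens h`.
-/

set_option autoImplicit false
universe u
open CategoryTheory CategoryTheory.Limits AlgebraicGeometry
attribute [local instance] HasDerivedCategory.standard

namespace Groth.Agent.Dual.H336.CanSysDef
open Groth.Agent.PerfA.Restrict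
open Groth.Agent.PerfB.BCTot Groth.Agent.PerfB.BCTot.Tot
open Groth.Agent.PerfB.BCSch

attribute [local instance] Groth.Agent.PerfB.BCSch.hasLpull

variable {X S : Scheme.{u}} (h : X ⟶ S)

/-- The opens of `X` separated over `S`. -/
def sepOpens : Set X.Opens := {V | IsSeparated (V.ι ≫ h)}

lemma mem_sepOpens_of_le {V V' : X.Opens} (hV : V ∈ sepOpens h) (hle : V' ≤ V) :
    V' ∈ sepOpens h := by
  have : IsSeparated (V.ι ≫ h) := hV
  change IsSeparated (V'.ι ≫ h)
  rw [← Scheme.homOfLE_ι X hle, Category.assoc]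
  infer_instance

lemma mem_sepOpens_of_isAffineOpen {V : X.Opens} (hV : IsAffineOpen V) : V ∈ sepOpens h := by
  have : IsAffine V.toScheme := hV
  change IsSeparated (V.ι ≫ h)
  infer_instance

/-- A strictly functorial system of objects `K V = (V → S)^! W` (for one compactification) over the
opens `V` of `X` separated over `S`. -/
def CanSys (W : DCoh.DQCoh S) : Prop :=
  ∃ (K : ∀ V : sepOpens h, DCoh.D V.1.toScheme)
    (m : ∀ {V' V : sepOpens h}, V'.1 ≤ V.1 → ((⟨V'.1.toScheme, K V'⟩ : Tot dPull.{u}) ⟶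
      ⟨V.1.toScheme, K V⟩)),
    (∀ {V' V : sepOpens h} (i : V'.1 ≤ V.1), (m i).base = X.homOfLE i) ∧
    (∀ {V' V : sepOpens h} (i : V'.1 ≤ V.1), IsCart (m i)) ∧
    (∀ {V'' V' V : sepOpens h} (i : V''.1 ≤ V'.1) (i' : V'.1 ≤ V.1),
      m i ≫ m i' = m (i.trans i')) ∧
    ∀ V : sepOpens h, ∃ (c : DEt.Compactification (V.1.ι ≫ h)) (_ : DCoh.HasRpush c.fbar)
      (hc : DCoh.RpushPreservesQCoh c.fbar) (a : DCoh.DQCoh S ⥤ DCoh.DQCoh c.Xbar)
      (_ : DCoh.RpushQ c.fbar hc ⊣ a), Nonempty (K V ≅ (restrictD c.j).obj (a.obj W).obj)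

end Groth.Agent.Dual.H336.CanSysDef
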