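import Groth.Agent.Dual.H336.ColimStalk

/-!
# Gluing of objects of `D(O_X)` (Beilinson–Bernstein–Deligne)

`HS X` is the sheaf property of `Hom` (for objects without negative `Hom`s).  `Datum X` is a system
of objects `K V` (supported on `V`), `V` in a downward closed set `B` of opens, with maps
`K V' ⟶ K V` for `V' ≤ V` which are isomorphisms over `V'`, compatible, and without negative `Hom`s.
`Datum.exists_glue`: there are `L` and maps `K V ⟶ L` which are compatible and isomorphisms over `V`.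
-/

set_option autoImplicit false
universe u
open CategoryTheory CategoryTheory.Limits AlgebraicGeometry Pretriangulated
open scoped ZeroObject
attribute [local instance] HasDerivedCategory.standard

namespace Groth.Agent.Dual.H336.BBD
open Groth.Agent.PerfA.Restrict Groth.Agent.PerfA Groth.Agent.Dual.H336.StalkIso
open Groth.Agent.Dual.H336.PartSys Groth.Agent.Dual.H336.ColimStalk

/-- The sheaf property of `Hom` in the absence of negative `Hom`s. -/
def HS (X : Scheme.{u}) : Prop :=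
  ∀ (K L : DCoh.D X) (B : Set X.Opens) (_ : ∀ V ∈ B, ∀ V' ≤ V, V' ∈ B) (_ : SuppIn (sSup B) K)
    (A : B → DCoh.D X) (a : ∀ V : B, A V ⟶ K) (_ : ∀ V : B, SuppIn V.1 (A V))
    (_ : ∀ V : B, IsoOver V.1 (a V)) (_ : ∀ V : B, ∀ n : ℤ, n < 0 → ∀ g : A V ⟶ L⟦n⟧, g = 0)
    (g : ∀ V : B, A V ⟶ L)
    (_ : ∀ V' V : B, V'.1 ≤ V.1 → ∀ u : A V' ⟶ A V, u ≫ a V = a V' → u ≫ g V = g V'),
    ∃! h : K ⟶ L, ∀ V : B, a V ≫ h = g V

/-- Gluing data. -/
structure Datum (X : Scheme.{u}) where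
  /-- a downward closed set of opens -/
  B : Set X.Opens
  down : ∀ V ∈ B, ∀ V' ≤ V, V' ∈ B
  /-- the objects -/
  K : B → DCoh.D X
  supp : ∀ V : B, SuppIn V.1 (K V)
  /-- the transition maps -/
  φ : ∀ {V' V : B}, V'.1 ≤ V.1 → (K V' ⟶ K V)
  φ_comp : ∀ {V'' V' V : B} (h : V''.1 ≤ V'.1) (h' : V'.1 ≤ V.1), φ h ≫ φ h' = φ (h.trans h')
  φ_iso : ∀ {V' V : B} (h : V'.1 ≤ V.1), IsoOver V'.1 (φ h)
  neg : ∀ {V' V : B}, V'.1 ≤ V.1 → ∀ n : ℤ, n < 0 → ∀ g : K V' ⟶ (K V)⟦n⟧, g = 0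

variable {X : Scheme.{u}} (D : Datum X)

namespace Datum

lemma φ_refl (V : D.B) : D.φ (le_refl V.1) = 𝟙 (D.K V) := by
  have h1 : IsIso (D.φ (le_refl V.1)) :=
    isIso_of_suppIn _ (D.supp V) (D.supp V) (D.φ_iso (le_refl V.1))
  have h2 := D.φ_comp (le_refl V.1) (le_refl V.1)
  exact (cancel_epi (D.φ (le_refl V.1))).1 (h2.trans (Category.comp_id _).symm)

/-- Partial solutions. -/
abbrev PSys : Type (u + 1) := PS (DerivedCategory.Q (C := X.Modules)) D.K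

variable {D}

/-- The open on which a partial solution lives. -/
def W (P : D.PSys) : X.Opens := sSup (Subtype.val '' P.S)

lemma le_W (P : D.PSys) {V : D.B} (hV : V ∈ P.S) : V.1 ≤ W P := le_sSup ⟨V, hV, rfl⟩

lemma mem_W (P : D.PSys) {x : X} : x ∈ W P ↔ ∃ V : D.B, V ∈ P.S ∧ x ∈ V.1 := by
  rw [W, TopologicalSpace.Opens.mem_sSup]
  constructor
  · rintro ⟨_, ⟨V, hV, rfl⟩, hx⟩
    exact ⟨V, hV, hx⟩
  · rintro ⟨V, hV, hx⟩
    exact ⟨V.1, ⟨V, hV, rfl⟩, hx⟩

/-- The conditions on a partial solution. -/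
structure Good (P : D.PSys) : Prop where
  supp : SuppIn (W P) (DerivedCategory.Q.obj P.E)
  iso : ∀ (V : D.B) (hV : V ∈ P.S), IsoOver V.1 (P.ψ V hV)
  compat : ∀ (V V' : D.B) (hV : V ∈ P.S) (hV' : V' ∈ P.S) (V'' : D.B) (h : V''.1 ≤ V.1)
    (h' : V''.1 ≤ V'.1), D.φ h ≫ P.ψ V hV = D.φ h' ≫ P.ψ V' hV'

lemma Good.of_iso {P P' : D.PSys} (e : P ≅ P') (h : Good P) : Good P' := by
  have hS : P.S = P'.S := Set.Subset.antisymm e.hom.sub e.inv.sub
  have hW : W P = W P' := by rw [W, W, hS]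
  have he : IsIso (DerivedCategory.Q.map e.hom.f) := by
    have : IsIso e.hom.f := ⟨e.inv.f, congrArg PS.Hom.f e.hom_inv_id, congrArg PS.Hom.f e.inv_hom_id⟩
    infer_instance
  have hψ : ∀ (V : D.B) (hV : V ∈ P'.S), P'.ψ V hV =
      P.ψ V (hS ▸ hV) ≫ DerivedCategory.Q.map e.hom.f := fun V hV => (e.hom.comm V _).symm
  constructor
  · rw [← hW]
    exact h.supp.of_iso (asIso (DerivedCategory.Q.map e.hom.f))
  · intro V hV
    rw [hψ]
    exact (h.iso V _).comp fun x _ => isoAt_of_isIso x _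
  · intro V V' hV hV' V'' h1 h2
    rw [hψ, hψ, ← Category.assoc, ← Category.assoc, h.compat V V' _ _ V'' h1 h2]

variable (D) in
/-- The empty partial solution. -/
noncomputable def empty : D.PSys where
  E := 0
  S := ∅
  ψ := fun _ h => absurd h (Set.notMem_empty _)

lemma good_empty : Good (empty D) where
  supp := fun x _ n => Functor.map_isZero (DerivedCategory.Q ⋙ SH x n) (isZero_zero _)
  iso := fun _ h => absurd h (Set.notMem_empty _)
  compat := fun _ _ h => absurd h (Set.notMem_empty _)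

/-- Representation of a morphism out of `Q E` by a morphism of complexes. -/
lemma exists_strict {E : CochainComplex X.Modules ℤ} {C : DCoh.D X}
    (j : DerivedCategory.Q.obj E ⟶ C) :
    ∃ (E' : CochainComplex X.Modules ℤ) (f : E ⟶ E') (e : DerivedCategory.Q.obj E' ≅ C),
      DerivedCategory.Q.map f ≫ e.hom = j := by
  let e₀ : DerivedCategory.Q.obj (DerivedCategory.Q.objPreimage C) ≅ C :=
    DerivedCategory.Q.objObjPreimageIso C
  obtain ⟨E', g, s, hs, h⟩ := DerivedCategory.left_fac (j ≫ e₀.inv)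
  refine ⟨E', g, (asIso (DerivedCategory.Q.map s)).symm ≪≫ e₀, ?_⟩
  have h2 : DerivedCategory.Q.map g ≫ inv (DerivedCategory.Q.map s) = j ≫ e₀.inv := h.symm
  rw [Iso.trans_hom, Iso.symm_hom, asIso_inv, ← Category.assoc, h2, Category.assoc,
    Iso.inv_hom_id, Category.comp_id]

/-- The successor step. -/
theorem Good.exists_succ (hHS : HS X) {P : D.PSys} (hP : Good P) (V₀ : D.B) (hV₀ : V₀ ∉ P.S) :
    ∃ (P' : D.PSys) (_ : P ⟶ P'), Good P' ∧ P'.S = insert V₀ P.S := by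
  classical
  obtain ⟨M, m, hM, hm⟩ := exists_core (V₀.1 ⊓ W P) (D.K V₀)
  -- the basis of `V₀ ⊓ W`
  let B₀ : Set X.Opens := {U | U ≤ V₀.1 ∧ ∃ V : D.B, V ∈ P.S ∧ U ≤ V.1}
  have hB₀ : ∀ U ∈ B₀, ∀ U' ≤ U, U' ∈ B₀ := by
    rintro U ⟨h1, V, hV, h2⟩ U' hU'
    exact ⟨hU'.trans h1, V, hV, hU'.trans h2⟩
  have hsup : V₀.1 ⊓ W P ≤ sSup B₀ := by
    intro x hx
    obtain ⟨hx1, hx2⟩ := hx
    obtain ⟨V, hV, hxV⟩ := (mem_W P).1 hx2
    rw [TopologicalSpace.Opens.mem_sSup]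
    exact ⟨V₀.1 ⊓ V.1, ⟨inf_le_left, V, hV, inf_le_right⟩, ⟨hx1, hxV⟩⟩
  have hsup' : ∀ U ∈ B₀, U ≤ V₀.1 ⊓ W P := by
    rintro U ⟨h1, V, hV, h2⟩
    exact le_inf h1 (h2.trans (le_W P hV))
  let β : B₀ → D.B := fun U => ⟨U.1, D.down _ V₀.2 _ U.2.1⟩
  -- the chosen members of `P.S`
  choose c hcS hc using fun U : B₀ => U.2.2
  -- the maps `K U ⟶ M`
  have hlift : ∀ U : B₀, ∃ b : D.K (β U) ⟶ M, b ≫ m = D.φ (V' := β U) (V := V₀) U.2.1 := fun U =>
    exists_lift (D.supp (β U)) m (hm.mono (hsup' U.1 U.2)) _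
  choose a ha using hlift
  have haiso : ∀ U : B₀, IsoOver U.1 (a U) := fun U =>
    IsoOver.of_comp_right (hm.mono (hsup' U.1 U.2)) (by
      rw [ha U]
      exact D.φ_iso (V' := β U) (V := V₀) U.2.1)
  let g : ∀ U : B₀, D.K (β U) ⟶ DerivedCategory.Q.obj P.E := fun U =>
    D.φ (V' := β U) (V := c U) (hc U) ≫ P.ψ (c U) (hcS U)
  have hg : ∀ (U : B₀) (V : D.B) (hV : V ∈ P.S) (h : U.1 ≤ V.1),
      D.φ (V' := β U) (V := V) h ≫ P.ψ V hV = g U := fun U V hV h =>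
    hP.compat V (c U) hV (hcS U) (β U) h (hc U)
  obtain ⟨α, hα, -⟩ := hHS M (DerivedCategory.Q.obj P.E) B₀ hB₀ (hM.mono hsup)
    (fun U => D.K (β U)) a (fun U => D.supp (β U)) haiso (by
      intro U n hn f
      obtain ⟨f', hf'⟩ := exists_lift (D.supp (β U)) ((P.ψ (c U) (hcS U))⟦n⟧')
        (((hP.iso (c U) (hcS U)).mono (hc U)).shift n) f
      rw [← hf', D.neg (V' := β U) (V := c U) (hc U) n hn f', zero_comp]) g (by
      intro U' U h u hu
      have hu' : u = D.φ (V' := β U') (V := β U) h := by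
        refine hom_ext (D.supp (β U')) (D.φ (V' := β U) (V := V₀) U.2.1)
          ((D.φ_iso (V' := β U) (V := V₀) U.2.1).mono h) ?_
        rw [D.φ_comp, ← ha U, ← Category.assoc, hu]
        exact ha U'
      rw [hu']
      change _ ≫ D.φ (V' := β U) (V := c U) (hc U) ≫ P.ψ (c U) (hcS U) = _
      rw [← Category.assoc, D.φ_comp]
      exact hg U' (c U) (hcS U) (h.trans (hc U)))
  have hαiso : IsoOver (V₀.1 ⊓ W P) α := by
    intro x hx
    obtain ⟨U, hU, hxU⟩ := TopologicalSpace.Opens.mem_sSup.1 (hsup hx)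
    refine IsoAt.of_comp_left (haiso ⟨U, hU⟩ x hxU) ?_
    rw [hα ⟨U, hU⟩]
    exact (D.φ_iso (V' := β ⟨U, hU⟩) (V := c ⟨U, hU⟩) (hc ⟨U, hU⟩) x hxU).comp
      (hP.iso _ _ x (hc ⟨U, hU⟩ hxU))
  have hm' : IsoOver (W P) (-m) := by
    intro x hx
    by_cases hx' : x ∈ V₀.1
    · exact (hm x ⟨hx', hx⟩).neg
    · exact .of_zeroAt _ (hM x fun h => hx' h.1) (D.supp V₀ x hx')
  have hα' : IsoOver V₀.1 α := by
    intro x hx
    by_cases hx' : x ∈ W P
    · exact hαiso x ⟨hx, hx'⟩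
    · exact .of_zeroAt _ (hM x fun h => hx' h.2) (hP.supp x hx')
  obtain ⟨C, π, δ, hT⟩ := distinguished_cocone_triangle (biprod.lift α (-m))
  let j₁ : DerivedCategory.Q.obj P.E ⟶ C := biprod.inl ≫ π
  let j₂ : D.K V₀ ⟶ C := biprod.inr ≫ π
  have hj₁ : IsoOver (W P) j₁ := isoOver_inl_comp hT hm'
  have hj₂ : IsoOver V₀.1 j₂ := isoOver_inr_comp hT hα'
  have hj : α ≫ j₁ = m ≫ j₂ := by
    have h0 : biprod.lift α (-m) ≫ π = 0 := comp_distTriang_mor_zero₁₂ _ hT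
    have h1 : biprod.lift α (-m) ≫ π = α ≫ j₁ - m ≫ j₂ := by
      rw [biprod.lift_eq, Preadditive.add_comp, Category.assoc, Category.assoc,
        Preadditive.neg_comp, sub_eq_add_neg]
    rw [h1, sub_eq_zero] at h0
    exact h0
  obtain ⟨E', f, e, hf⟩ := exists_strict j₁
  have hf' : DerivedCategory.Q.map f = j₁ ≫ e.inv := by
    rw [← hf, Category.assoc, e.hom_inv_id, Category.comp_id]
  let ψ' : ∀ V : D.B, V ∈ insert V₀ P.S → (D.K V ⟶ DerivedCategory.Q.obj E') := fun V hV =>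
    if h : V ∈ P.S then P.ψ V h ≫ DerivedCategory.Q.map f
    else eqToHom (by rw [(Set.mem_insert_iff.1 hV).resolve_right h]) ≫ j₂ ≫ e.inv
  have hψ1 : ∀ (V : D.B) (h : V ∈ P.S) (h'), ψ' V h' = P.ψ V h ≫ DerivedCategory.Q.map f :=
    fun V h h' => dif_pos h
  have hψ2 : ∀ (h'), ψ' V₀ h' = j₂ ≫ e.inv := fun h' =>
    (dif_neg hV₀).trans (by rw [eqToHom_refl, Category.id_comp])
  let P' : D.PSys := { E := E', S := insert V₀ P.S, ψ := ψ' }
  have hW : W P' = V₀.1 ⊔ W P := by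
    rw [W, W, Set.image_insert_eq, sSup_insert]
  refine ⟨P', { f := f, sub := Set.subset_insert _ _, comm := fun V hV =>
    (hψ1 V hV (Set.mem_insert_of_mem _ hV)).symm }, ⟨?_, ?_, ?_⟩, rfl⟩
  · rw [hW]
    refine SuppIn.of_iso ?_ e.symm
    refine suppIn_cone hT (hM.mono (inf_le_left.trans le_sup_left)) ?_
    exact suppIn_biprod (hP.supp.mono le_sup_right) ((D.supp V₀).mono le_sup_left)
  · intro V hV
    by_cases h : V ∈ P.S
    · change IsoOver V.1 (ψ' V hV)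
      rw [hψ1 V h hV, hf']
      exact (hP.iso V h).comp ((hj₁.mono (le_W P h)).comp fun x _ => isoAt_of_isIso x _)
    · obtain rfl := (Set.mem_insert_iff.1 hV).resolve_right h
      change IsoOver V.1 (ψ' V hV)
      rw [hψ2 hV]
      exact hj₂.comp fun x _ => isoAt_of_isIso x _
  · -- compatibility
    have key : ∀ (V : D.B) (_ : V ∈ P.S) (U : D.B) (h : U.1 ≤ V.1) (h' : U.1 ≤ V₀.1) (h1 h2),
        D.φ h ≫ ψ' V h1 = D.φ h' ≫ ψ' V₀ h2 := by
      intro V hV U h h' h1 h2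
      rw [hψ1 V hV h1, hψ2 h2, hf']
      let U₀ : B₀ := ⟨U.1, h', V, hV, h⟩
      have e1 : D.φ h ≫ P.ψ V hV = a U₀ ≫ α := (hg U₀ V hV h).trans (hα U₀).symm
      have e2 : D.φ h' = a U₀ ≫ m := (ha U₀).symm
      rw [← Category.assoc, e1, e2, Category.assoc, ← Category.assoc α, hj, Category.assoc,
        Category.assoc (a U₀)]
    intro V V' hV hV' V'' h h'
    change D.φ h ≫ ψ' V hV = D.φ h' ≫ ψ' V' hV'
    by_cases h1 : V ∈ P.S
    · by_cases h2 : V' ∈ P.S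
      · rw [hψ1 V h1 hV, hψ1 V' h2 hV', ← Category.assoc, ← Category.assoc,
          hP.compat V V' h1 h2 V'' h h']
      · obtain rfl := (Set.mem_insert_iff.1 hV').resolve_right h2
        exact key V h1 V'' h h' hV hV'
    · obtain rfl := (Set.mem_insert_iff.1 hV).resolve_right h1
      by_cases h2 : V' ∈ P.S
      · exact (key V' h2 V'' h' h hV' hV).symm
      · obtain rfl := (Set.mem_insert_iff.1 hV').resolve_right h2
        rfl

/-- The limit step. -/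
theorem Good.of_isColimit {J : Type u} [LinearOrder J] [Nonempty J] (F : J ⥤ D.PSys)
    (c : Cocone F) (hc : IsColimit c) (hF : ∀ j, Good (F.obj j)) : Good c.pt := by
  let c₀ : Cocone (F ⋙ PS.forget _ _) := colimit.cocone _
  have hc₀ : IsColimit c₀ := colimit.isColimit _
  refine Good.of_iso ((PS.isColimitCoconeOf F hc₀).coconePointUniqueUpToIso hc) ?_
  have hψ : ∀ (V : D.B) (hV : V ∈ (PS.coconeOf F c₀).pt.S) (j : J) (hj : V ∈ (F.obj j).S),
      (PS.coconeOf F c₀).pt.ψ V hV = (F.obj j).ψ V hj ≫ DerivedCategory.Q.map (c₀.ι.app j) :=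
    fun V hV j hj => PS.ψ_ι_eq c₀ _ hj
  have hmem : ∀ V : D.B, V ∈ (PS.coconeOf F c₀).pt.S ↔ ∃ j, V ∈ (F.obj j).S := fun V =>
    Set.mem_iUnion
  constructor
  · intro x hx
    refine zeroAt_pt (E := F ⋙ PS.forget _ _) hc₀ fun j => (hF j).supp x fun hxj => hx ?_
    obtain ⟨V, hV, hxV⟩ := (mem_W _).1 hxj
    exact (mem_W _).2 ⟨V, (hmem V).2 ⟨j, hV⟩, hxV⟩
  · intro V hV x hx
    obtain ⟨i, hi⟩ := (hmem V).1 hV
    rw [hψ V hV i hi]
    refine ((hF i).iso V hi x hx).comp ?_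
    refine isoAt_ι (E := F ⋙ PS.forget _ _) hc₀ i fun j hij => ?_
    refine IsoAt.of_comp_left ((hF i).iso V hi x hx) ?_
    have h1 := (F.map (homOfLE hij)).comm V hi
    change IsoAt x ((F.obj i).ψ V hi ≫ DerivedCategory.Q.map (F.map (homOfLE hij)).f)
    rw [h1]
    exact (hF j).iso V _ x hx
  · intro V V' hV hV' V'' h h'
    obtain ⟨i, hi⟩ := (hmem V).1 hV
    obtain ⟨i', hi'⟩ := (hmem V').1 hV'
    obtain ⟨k, hk, hk'⟩ := exists_ge_ge i i'
    have h1 := (F.map (homOfLE hk)).sub hi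
    have h2 := (F.map (homOfLE hk')).sub hi'
    rw [hψ V hV k h1, hψ V' hV' k h2]
    refine (Category.assoc _ _ _).symm.trans (Eq.trans ?_ (Category.assoc _ _ _))
    rw [(hF k).compat V V' h1 h2 V'' h h']

variable (D) in
/-- **Gluing of objects.** -/
theorem exists_glue (hHS : HS X) : ∃ (L : DCoh.D X) (ψ : ∀ V : D.B, D.K V ⟶ L),
    SuppIn (sSup D.B) L ∧ (∀ V : D.B, IsoOver V.1 (ψ V)) ∧
      ∀ {V' V : D.B} (h : V'.1 ≤ V.1), D.φ h ≫ ψ V = ψ V' := by
  have : HasColimitsOfSize.{u, u} (CochainComplex X.Modules ℤ) := ⟨fun J _ => inferInstance⟩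
  obtain ⟨P, hP, hS⟩ := PS.exists_univ (Q := DerivedCategory.Q (C := X.Modules)) (K := D.K) Good
    (fun e h => h.of_iso e) ⟨_, good_empty⟩ (fun P hP hS => by
      obtain ⟨V₀, hV₀⟩ := (Set.ne_univ_iff_exists_notMem _).1 hS
      obtain ⟨P', f, h1, h2⟩ := hP.exists_succ hHS V₀ hV₀
      refine ⟨P', f, h1, fun h => hV₀ ?_⟩
      rw [h, h2]
      exact Set.mem_insert _ _)
    (fun J _ _ F c hc h => Good.of_isColimit F c hc h)
  have hmem : ∀ V : D.B, V ∈ P.S := fun V => hS ▸ Set.mem_univ V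
  refine ⟨DerivedCategory.Q.obj P.E, fun V => P.ψ V (hmem V), ?_, fun V => hP.iso V _, ?_⟩
  · refine hP.supp.mono ?_
    rw [W]
    refine sSup_le_sSup ?_
    rintro _ ⟨V, _, rfl⟩
    exact V.2
  · intro V' V h
    rw [hP.compat V V' (hmem V) (hmem V') V' h le_rfl, D.φ_refl, Category.id_comp]

end Datum

end Groth.Agent.Dual.H336.BBD
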