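import Mathlib.CategoryTheory.SmallObject.TransfiniteIteration
import Mathlib.SetTheory.Ordinal.Arithmetic
import Mathlib.CategoryTheory.Limits.HasLimits

/-!
# Partial systems and transfinite extension

`Q : C ⥤ D` a functor, `K : B → D` a family of objects.  A partial system is an object `E : C`, a set
`S ⊆ B` and maps `ψ V : K V ⟶ Q E` for `V ∈ S`.  The category of partial systems has colimits of chains.
`exists_univ`: a class of partial systems which is nonempty, closed under colimits of chains and
in which every member with `S ≠ univ` has a proper extension contains a member with `S = univ`.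
-/

set_option autoImplicit false

universe w v₁ v₂ u₁ u₂

open CategoryTheory CategoryTheory.Limits

namespace Groth.Agent.Dual.H336.PartSys

variable {C : Type u₁} [Category.{v₁} C] {D : Type u₂} [Category.{v₂} D] (Q : C ⥤ D)
  {B : Type w} (K : B → D)

/-- Partial systems. -/
structure PS where
  /-- the underlying object -/
  E : C
  /-- the set of indices -/
  S : Set B
  /-- the structure maps -/
  ψ : ∀ V : B, V ∈ S → (K V ⟶ Q.obj E)

namespace PS

variable {Q K}

/-- Morphisms of partial systems. -/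
@[ext]
structure Hom (P P' : PS Q K) where
  /-- the underlying morphism -/
  f : P.E ⟶ P'.E
  sub : P.S ⊆ P'.S
  comm : ∀ (V : B) (hV : V ∈ P.S), P.ψ V hV ≫ Q.map f = P'.ψ V (sub hV)

instance : Category (PS Q K) where
  Hom P P' := Hom P P'
  id P := { f := 𝟙 _, sub := subset_rfl, comm := fun V hV => by simp }
  comp g h :=
    { f := g.f ≫ h.f
      sub := g.sub.trans h.sub
      comm := fun V hV => by
        rw [Q.map_comp, ← Category.assoc, g.comm V hV, h.comm V _] }
  id_comp g := Hom.ext (Category.id_comp _)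
  comp_id g := Hom.ext (Category.comp_id _)
  assoc g h k := Hom.ext (Category.assoc _ _ _)

@[simp] lemma comp_f {P₁ P₂ P₃ : PS Q K} (g : P₁ ⟶ P₂) (h : P₂ ⟶ P₃) : (g ≫ h).f = g.f ≫ h.f := rfl

@[simp] lemma id_f (P : PS Q K) : Hom.f (𝟙 P) = 𝟙 P.E := rfl

lemma hom_ext {P₁ P₂ : PS Q K} {g h : P₁ ⟶ P₂} (e : g.f = h.f) : g = h := Hom.ext e

variable (Q K) in
/-- The forgetful functor. -/
@[simps]
def forget : PS Q K ⥤ C where
  obj P := P.E
  map g := g.f

section Colimits

variable {J : Type*} [Preorder J] [IsDirectedOrder J] [Nonempty J] (F : J ⥤ PS Q K)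
  {c : Cocone (F ⋙ forget Q K)}

variable {F} in
omit [Nonempty J] in
lemma ψ_ι_eq (c : Cocone (F ⋙ forget Q K)) {V : B} {j k : J} (hj : V ∈ (F.obj j).S)
    (hk : V ∈ (F.obj k).S) :
    (F.obj j).ψ V hj ≫ Q.map (c.ι.app j) = (F.obj k).ψ V hk ≫ Q.map (c.ι.app k) := by
  have key : ∀ {j l : J} (h : j ≤ l) (hj : V ∈ (F.obj j).S),
      (F.obj j).ψ V hj ≫ Q.map (c.ι.app j) =
        (F.obj l).ψ V ((F.map (homOfLE h)).sub hj) ≫ Q.map (c.ι.app l) := by
    intro j l h hj
    rw [← (F.map (homOfLE h)).comm V hj, Category.assoc, ← Q.map_comp]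
    congr 2
    exact (c.w (homOfLE h)).symm
  obtain ⟨l, h1, h2⟩ := exists_ge_ge j k
  rw [key h1, key h2]

/-- The colimit cocone of a directed diagram of partial systems. -/
noncomputable def coconeOf (c : Cocone (F ⋙ forget Q K)) : Cocone F where
  pt :=
    { E := c.pt
      S := ⋃ j, (F.obj j).S
      ψ := fun V hV => (F.obj (Set.mem_iUnion.1 hV).choose).ψ V (Set.mem_iUnion.1 hV).choose_spec ≫
        Q.map (c.ι.app _) }
  ι :=
    { app := fun j =>
        { f := c.ι.app j
          sub := Set.subset_iUnion (fun j => (F.obj j).S) j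
          comm := fun _ hV => ψ_ι_eq c hV _ }
      naturality := fun _ _ h => hom_ext (c.ι.naturality h) }

/-- The cocone `coconeOf F c` is a colimit if `c` is. -/
noncomputable def isColimitCoconeOf {c : Cocone (F ⋙ forget Q K)} (hc : IsColimit c) :
    IsColimit (coconeOf F c) where
  desc s :=
    { f := hc.desc ((forget Q K).mapCocone s)
      sub := Set.iUnion_subset fun j => (s.ι.app j).sub
      comm := fun V hV => by
        have h := (s.ι.app (Set.mem_iUnion.1 hV).choose).comm V (Set.mem_iUnion.1 hV).choose_spec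
        refine Eq.trans ?_ h
        refine (Category.assoc _ _ _).trans ?_
        refine congrArg (fun z => (F.obj (Set.mem_iUnion.1 hV).choose).ψ V
          (Set.mem_iUnion.1 hV).choose_spec ≫ z) ?_
        exact (Q.map_comp _ _).symm.trans
          (congrArg (fun z => Q.map z) (hc.fac ((forget Q K).mapCocone s) _)) }
  fac s j := hom_ext (hc.fac ((forget Q K).mapCocone s) j)
  uniq s m hm := hom_ext (hc.uniq ((forget Q K).mapCocone s) m.f
    fun j => congrArg Hom.f (hm j))

lemma hasColimitsOfShape [HasColimitsOfShape J C] : HasColimitsOfShape J (PS Q K) where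
  has_colimit F := ⟨⟨⟨coconeOf F (colimit.cocone _), isColimitCoconeOf F (colimit.isColimit _)⟩⟩⟩

end Colimits

lemma hasIterationOfShape (J : Type w) [LinearOrder J] [SuccOrder J] [WellFoundedLT J] [Nonempty J]
    [HasColimitsOfSize.{w, w} C] : HasIterationOfShape J (PS Q K) where
  hasColimitsOfShape_of_isSuccLimit j hj := by
    have : Nonempty (Set.Iio j) := by
      obtain ⟨i, hi⟩ := (not_isMin_iff.1 hj.not_isMin)
      exact ⟨⟨i, hi⟩⟩
    exact hasColimitsOfShape
  hasColimitsOfShape := hasColimitsOfShape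

/-- The extension theorem. -/
theorem exists_univ [HasColimitsOfSize.{w, w} C] (Good : PS Q K → Prop)
    (hiso : ∀ {P P' : PS Q K}, (P ≅ P') → Good P → Good P')
    (hbot : ∃ P, Good P)
    (hstep : ∀ P, Good P → P.S ≠ Set.univ → ∃ (P' : PS Q K) (_ : P ⟶ P'), Good P' ∧ P.S ≠ P'.S)
    (hlim : ∀ (J : Type w) [LinearOrder J] [Nonempty J] (F : J ⥤ PS Q K) (c : Cocone F),
      IsColimit c → (∀ j, Good (F.obj j)) → Good c.pt) :
    ∃ P, Good P ∧ P.S = Set.univ := by
  classical
  by_contra hno
  push Not at hno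
  have hs : ∀ P : PS Q K, ∃ (P' : PS Q K) (_ : P ⟶ P'), Good P → (Good P' ∧ P.S ≠ P'.S) := by
    intro P
    by_cases hP : Good P
    · obtain ⟨P', f, h⟩ := hstep P hP (hno P hP)
      exact ⟨P', f, fun _ => h⟩
    · exact ⟨P, 𝟙 P, fun h => absurd h hP⟩
  choose nx nf hnx using hs
  obtain ⟨P₀, hP₀⟩ := hbot
  let Φ : SmallObject.SuccStruct (PS Q K) := { X₀ := P₀, succ := nx, toSucc := nf }
  let κ : Cardinal.{w} := Order.succ (max (Cardinal.mk B) Cardinal.aleph0)
  have hκ : Cardinal.aleph0 ≤ κ := (le_max_right _ _).trans (Order.le_succ _)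
  have hκB : Cardinal.mk B < κ := (le_max_left _ _).trans_lt (Order.lt_succ _)
  let J : Type w := κ.ord.ToType
  have : NoMaxOrder J := Cardinal.noMaxOrder hκ
  have : Nonempty J := by
    rw [← Cardinal.mk_ne_zero_iff]
    simp only [J, Cardinal.mk_ord_toType]
    exact (Cardinal.aleph0_pos.trans_le hκ).ne'
  let : OrderBot J := WellFoundedLT.toOrderBot J
  have : HasIterationOfShape J (PS Q K) := hasIterationOfShape J
  let F : J ⥤ PS Q K := Φ.iterationFunctor J
  have hgood : ∀ j : J, Good (F.obj j) := by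
    intro j
    induction j using SuccOrder.limitRecOn with
    | isMin j hj =>
      obtain rfl := hj.eq_bot
      exact hiso (Φ.iterationFunctorObjBotIso J).symm hP₀
    | succ j hj ih =>
      exact hiso (Φ.iterationFunctorObjSuccIso j hj).symm (hnx _ ih).1
    | isSuccLimit j hj ih =>
      have : Nonempty (Set.Iio j) := by
        obtain ⟨i, hi⟩ := (not_isMin_iff.1 hj.not_isMin)
        exact ⟨⟨i, hi⟩⟩
      exact hlim (Set.Iio j) _ _ (F.isColimitOfIsWellOrderContinuous j hj) fun i => ih i.1 i.2
  have hstrict : ∀ j : J, (F.obj j).S ≠ (F.obj (Order.succ j)).S := by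
    intro j h
    have h1 : F.obj (Order.succ j) = nx (F.obj j) :=
      ((Φ.prop_iterationFunctor_map_succ j (not_isMax j)).succ_eq).symm
    rw [h1] at h
    exact (hnx _ (hgood j)).2 h
  have hmono : ∀ {i j : J}, i ≤ j → (F.obj i).S ⊆ (F.obj j).S := fun h => (F.map (homOfLE h)).sub
  have hex : ∀ j : J, ∃ b : B, b ∈ (F.obj (Order.succ j)).S ∧ b ∉ (F.obj j).S := by
    intro j
    by_contra h
    push Not at h
    exact hstrict j (Set.Subset.antisymm (hmono (Order.le_succ j)) h)
  choose b hb hb' using hex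
  have hlt : ∀ {i j : J}, i < j → b i ≠ b j := fun {i j} h e =>
    hb' j (hmono (Order.succ_le_of_lt h) (e ▸ hb i))
  have hinj : Function.Injective b := by
    intro i j e
    rcases lt_trichotomy i j with h | h | h
    · exact absurd e (hlt h)
    · exact h
    · exact absurd e.symm (hlt h)
  have := Cardinal.mk_le_of_injective hinj
  rw [Cardinal.mk_ord_toType] at this
  exact absurd this (not_le.2 hκB)

end PS

end Groth.Agent.Dual.H336.PartSys
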