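import Groth.Agent.Dual.H336.StalkIso
import Groth.Agent.Dual.H336.PartSys
import Groth.Agent.Dcoh.HomColim
import Groth.Agent.Dcoh.DerSch
import Groth.Agent.PerfA.StalkExact
import Mathlib.CategoryTheory.Limits.Constructions.EventuallyConstant

/-!
# Directed colimits of complexes of `O_X`-modules and stalks of cohomology sheaves
-/

set_option autoImplicit false
universe u
open CategoryTheory CategoryTheory.Limits AlgebraicGeometry
attribute [local instance] HasDerivedCategory.standard

namespace Groth.Agent.Dual.H336.ColimStalk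
open Groth.Agent.PerfA.Restrict Groth.Agent.PerfA Groth.Agent.Dual.H336.StalkIso
open Groth.Agent.PerfA.StalkExact Groth.Agent.Dcoh.HomColim

variable {X : Scheme.{u}}

/-- `E ↦ H^n(E)_x` on complexes. -/
noncomputable abbrev SHQ (x : X) (n : ℤ) : CochainComplex X.Modules ℤ ⥤ Ab.{u} :=
  DerivedCategory.Q ⋙ SH x n

/-- `SHQ` in terms of the cohomology of complexes. -/
noncomputable def shqIso (x : X) (n : ℤ) :
    HomologicalComplex.homologyFunctor X.Modules (ComplexShape.up ℤ) n ⋙ stalkAb x ≅ SHQ x n :=
  Functor.isoWhiskerRight (DerivedCategory.homologyFunctorFactors X.Modules n).symm (stalkAb x) ≪≫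
    Functor.associator _ _ _

lemma preservesColimitsOfShape_SHQ (J : Type u) [SmallCategory J] [IsFiltered J] (x : X) (n : ℤ) :
    PreservesColimitsOfShape J (SHQ x n) := by
  have : IsGrothendieckAbelian.{u} X.Modules := Groth.Agent.Dcoh.DerSch.isGrothendieckAbelian X
  have : HasExactColimitsOfShape J X.Modules := inferInstance
  have : PreservesColimitsOfShape J (HomologicalComplex.homologyFunctor X.Modules
    (ComplexShape.up ℤ) n ⋙ stalkAb x) := inferInstance
  exact preservesColimitsOfShape_of_natIso (shqIso x n)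

variable {J : Type u} [LinearOrder J] [Nonempty J] {E : J ⥤ CochainComplex X.Modules ℤ}
  {c : Cocone E} (hc : IsColimit c)

include hc

lemma isoAt_ι {x : X} (i : J)
    (h : ∀ (j : J) (hij : i ≤ j), IsoAt x (DerivedCategory.Q.map (E.map (homOfLE hij)))) :
    IsoAt x (DerivedCategory.Q.map (c.ι.app i)) := by
  intro n
  have := preservesColimitsOfShape_SHQ J x n
  have hc' := isColimitOfPreserves (SHQ x n) hc
  have he : (E ⋙ SHQ x n).IsEventuallyConstantFrom i := fun j f => h j (leOfHom f) n
  exact he.isIso_ι_of_isColimit hc'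

lemma zeroAt_pt {x : X} (h : ∀ j : J, ZeroAt x (DerivedCategory.Q.obj (E.obj j))) :
    ZeroAt x (DerivedCategory.Q.obj c.pt) := by
  intro n
  have := preservesColimitsOfShape_SHQ J x n
  have hc' := isColimitOfPreserves (SHQ x n) hc
  rw [IsZero.iff_id_eq_zero]
  refine hc'.hom_ext fun j => ?_
  exact (h j n).eq_of_src _ _

end Groth.Agent.Dual.H336.ColimStalk
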