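import Groth.Agent.Dual.H336.HSAll
import Groth.Agent.PerfB.BCSch
import Groth.Agent.PerfC.LpullRestrict

/-!
# Gluing of objects of `D(O_X)`, in the total category of `X ↦ D(O_X)`

`exists_glueTot`: `B` a downward closed set of opens of `X`, `K V ∈ D(O_V)` for `V ∈ B`, and a
strictly functorial system of cartesian arrows `(V', K V') ⟶ (V, K V)` over `V' ≤ V`; if
`Hom(K V, K V[n]) = 0` for `n < 0`, then there are `L ∈ D(O_X)` and compatible cartesian arrows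
`(V, K V) ⟶ (X, L)`.
-/

set_option autoImplicit false
universe u
open CategoryTheory CategoryTheory.Limits AlgebraicGeometry
attribute [local instance] HasDerivedCategory.standard

namespace Groth.Agent.Dual.H336.GlueTot
open Groth.Agent.PerfA.Restrict Groth.Agent.PerfA Groth.Agent.PerfC.Supp
open Groth.Agent.PerfC.ExtZeroD Groth.Agent.PerfB.BCTot Groth.Agent.PerfB.BCTot.Tot
open Groth.Agent.PerfB.BCSch Groth.Agent.Dual.H336.StalkIso

attribute [local instance] Groth.Agent.PerfB.BCSch.hasLpull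

section Local

variable {U X : Scheme.{u}} (j : U ⟶ X) [IsOpenImmersion j]

/-- Pullback along an open immersion is the restriction. -/
noncomputable def eR : dPull.{u}.pull j ≅ restrictD j :=
  (Groth.Agent.PerfC.LpullRestrict.restrictIsoLpull j).symm

lemma isIso_pull_iff {M N : DCoh.D X} (φ : M ⟶ N) :
    IsIso ((dPull.{u}.pull j).map φ) ↔ IsIso ((restrictD j).map φ) :=
  NatIso.isIso_map_iff (eR j) φ

variable {j}

lemma bijective_pull_map (M N : DCoh.D X) (hM : ∀ n, supp M n ⊆ Set.range j) :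
    Function.Bijective (fun φ : M ⟶ N => (dPull.{u}.pull j).map φ) := by
  have h1 := bijective_restrictD_map j M N hM
  have h2 : (fun φ : M ⟶ N => (dPull.{u}.pull j).map φ) =
      (fun x : (restrictD j).obj M ⟶ (restrictD j).obj N =>
        (eR j).hom.app M ≫ x ≫ (eR j).inv.app N) ∘ (fun φ : M ⟶ N => (restrictD j).map φ) := by
    funext φ
    exact (NatIso.naturality_2 (eR j) φ).symm
  rw [h2]
  refine Function.Bijective.comp ⟨fun a b h => ?_, fun b =>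
    ⟨(eR j).inv.app M ≫ b ≫ (eR j).hom.app N, by simp⟩⟩ h1
  have h3 : a ≫ (eR j).inv.app N = b ≫ (eR j).inv.app N := (cancel_epi _).1 h
  exact (cancel_mono _).1 h3

/-- Extension by zero as a cartesian arrow. -/
lemma exists_shriek (K : DCoh.D U) : ∃ (M : DCoh.D X) (c : (⟨U, K⟩ : Tot dPull.{u}) ⟶ ⟨X, M⟩),
    (∀ n, supp M n ⊆ Set.range j) ∧ c.base = j ∧ IsCart c :=
  ⟨(shriekD j).obj K, ⟨j, (eR j).hom.app _ ≫ (Groth.Agent.PerfC.ExtZeroD.unitIso j K).inv⟩,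
    supp_shriekD_subset_range j K, rfl, by
      unfold IsCart
      dsimp only
      infer_instance⟩

variable {K : DCoh.D U} {M N : DCoh.D X}

lemma exists_hom (hM : ∀ n, supp M n ⊆ Set.range j) (c : (⟨U, K⟩ : Tot dPull.{u}) ⟶ ⟨X, M⟩)
    (d : (⟨U, K⟩ : Tot dPull.{u}) ⟶ ⟨X, N⟩) (hc : c.base = j) (hd : d.base = j) (hd' : IsCart d) :
    ∃ φ : M ⟶ N, d ≫ ver φ = c := by
  obtain ⟨cb, cf⟩ := c
  obtain ⟨db, df⟩ := d
  obtain rfl : cb = j := hc
  obtain rfl : db = cb := hd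
  have : IsIso df := hd'
  obtain ⟨φ, hφ⟩ := (bijective_pull_map M N hM).2 (cf ≫ inv df)
  refine ⟨φ, ?_⟩
  rw [comp_ver']
  dsimp only at hφ
  rw [hφ, Category.assoc, IsIso.inv_hom_id, Category.comp_id]

lemma hom_uniq (hM : ∀ n, supp M n ⊆ Set.range j) (d : (⟨U, K⟩ : Tot dPull.{u}) ⟶ ⟨X, N⟩)
    (hd : d.base = j) (hd' : IsCart d) {φ φ' : M ⟶ N} (h : d ≫ ver φ = d ≫ ver φ') : φ = φ' := by
  obtain ⟨db, df⟩ := d
  obtain rfl : db = j := hd
  have : IsIso df := hd'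
  rw [comp_ver', comp_ver'] at h
  have h1 := fib_eq h
  simp only [eqToHom_refl, Category.id_comp] at h1
  exact (bijective_pull_map M N hM).1 ((cancel_mono df).1 h1)

lemma isIso_of_cart (c : (⟨U, K⟩ : Tot dPull.{u}) ⟶ ⟨X, M⟩) (d : (⟨U, K⟩ : Tot dPull.{u}) ⟶ ⟨X, N⟩)
    (hd : d.base = j) (hc' : IsCart c) (hd' : IsCart d) {φ : M ⟶ N} (h : d ≫ ver φ = c) :
    IsIso ((restrictD j).map φ) := by
  subst h
  obtain ⟨db, df⟩ := d
  obtain rfl : db = j := hd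
  have : IsIso df := hd'
  rw [comp_ver'] at hc'
  have h2 : IsIso ((dPull.{u}.pull db).map φ ≫ df) := hc'
  rw [← isIso_pull_iff]
  exact IsIso.of_isIso_comp_right _ df

lemma exists_lift_cart (φ : M ⟶ N) (hφ : IsIso ((restrictD j).map φ))
    (c : (⟨U, K⟩ : Tot dPull.{u}) ⟶ ⟨X, M⟩) (hc : c.base = j) (hc' : IsCart c) :
    ∃ d : (⟨U, K⟩ : Tot dPull.{u}) ⟶ ⟨X, N⟩, d.base = j ∧ IsCart d ∧ d ≫ ver φ = c := by
  obtain ⟨cb, cf⟩ := c
  obtain rfl : cb = j := hc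
  have : IsIso cf := hc'
  have h1 : IsIso ((dPull.{u}.pull cb).map φ) := (isIso_pull_iff cb φ).2 hφ
  refine ⟨⟨cb, inv ((dPull.{u}.pull cb).map φ) ≫ cf⟩, rfl, ?_, ?_⟩
  · unfold IsCart
    dsimp only
    infer_instance
  · rw [comp_ver', IsIso.hom_inv_id_assoc]

lemma cancel_ver (φ : M ⟶ N) (hφ : IsIso ((restrictD j).map φ))
    {x y : (⟨U, K⟩ : Tot dPull.{u}) ⟶ ⟨X, N⟩} (hx : x.base = j) (hy : y.base = j)
    (h : x ≫ ver φ = y ≫ ver φ) : x = y := by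
  obtain ⟨xb, xf⟩ := x
  obtain ⟨yb, yf⟩ := y
  obtain rfl : xb = j := hx
  obtain rfl : yb = xb := hy
  have h1 : IsIso ((dPull.{u}.pull yb).map φ) := (isIso_pull_iff yb φ).2 hφ
  rw [comp_ver', comp_ver'] at h
  have h2 := fib_eq h
  simp only [eqToHom_refl, Category.id_comp] at h2
  have h3 : xf = yf := (cancel_epi _).1 h2
  rw [h3]

/-- The isomorphism attached to a cartesian arrow. -/
lemma nonempty_iso_of_cart (c : (⟨U, K⟩ : Tot dPull.{u}) ⟶ ⟨X, M⟩) (hc : c.base = j)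
    (hc' : IsCart c) : Nonempty ((restrictD j).obj M ≅ K) := by
  obtain ⟨cb, cf⟩ := c
  obtain rfl : cb = j := hc
  have : IsIso cf := hc'
  exact ⟨(eR cb).symm.app M ≪≫ asIso cf⟩

end Local

variable {X : Scheme.{u}}

/-- **Gluing of objects** from a strictly functorial system of cartesian arrows. -/
theorem exists_glueTot (B : Set X.Opens) (hB : ∀ V ∈ B, ∀ V' ≤ V, V' ∈ B)
    (K : ∀ V : B, DCoh.D V.1.toScheme)
    (m : ∀ {V' V : B}, V'.1 ≤ V.1 → ((⟨V'.1.toScheme, K V'⟩ : Tot dPull.{u}) ⟶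
      ⟨V.1.toScheme, K V⟩))
    (m_base : ∀ {V' V : B} (h : V'.1 ≤ V.1), (m h).base = X.homOfLE h)
    (m_cart : ∀ {V' V : B} (h : V'.1 ≤ V.1), IsCart (m h))
    (m_comp : ∀ {V'' V' V : B} (h : V''.1 ≤ V'.1) (h' : V'.1 ≤ V.1),
      m h ≫ m h' = m (h.trans h'))
    (neg : ∀ (V : B) (n : ℤ), n < 0 → ∀ g : K V ⟶ (K V)⟦n⟧, g = 0) :
    ∃ (L : DCoh.D X) (c : ∀ V : B, (⟨V.1.toScheme, K V⟩ : Tot dPull.{u}) ⟶ ⟨X, L⟩),
      (∀ V, (c V).base = V.1.ι) ∧ (∀ V, IsCart (c V)) ∧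
        (∀ n, supp L n ⊆ ((sSup B : X.Opens) : Set X)) ∧
          ∀ {V' V : B} (h : V'.1 ≤ V.1), m h ≫ c V = c V' := by
  choose M c hM hc hc' using fun V : B => exists_shriek (j := V.1.ι) (K V)
  have hb : ∀ {V' V : B} (h : V'.1 ≤ V.1), (m h ≫ c V).base = V'.1.ι := fun h => by
    rw [comp_base, m_base, hc, Scheme.homOfLE_ι]
  have hcart : ∀ {V' V : B} (h : V'.1 ≤ V.1), IsCart (m h ≫ c V) := fun h =>
    (m_cart h).comp (hc' _)
  have hex : ∀ (V' V : B) (h : V'.1 ≤ V.1), ∃ φ : M V' ⟶ M V, (m h ≫ c V) ≫ ver φ = c V' :=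
    fun V' V h => exists_hom (hM V') (c V') (m h ≫ c V) (hc V') (hb h) (hcart h)
  choose φ hφ using hex
  have hsupp : ∀ (V : B) (n : ℤ), supp (M V) n ⊆ (V.1 : Set X) := fun V n => by
    have := hM V n
    rwa [Scheme.Opens.range_ι] at this
  obtain ⟨L, ψ, hL, hψ, hψ'⟩ := Groth.Agent.Dual.H336.HSAll.exists_glue' B hB M hsupp
    (fun {V' V} h => φ V' V h) (fun {V'' V' V} h h' => by
      refine hom_uniq (hM V'') (m (h.trans h') ≫ c V) (hb _) (hcart _) ?_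
      rw [hφ, ← ver_comp_ver, ← Category.assoc, ← m_comp h h', Category.assoc (m h),
        Category.assoc (m h), hφ V' V h', hφ V'' V' h])
    (fun {V' V} h => isIso_of_cart (c V') (m h ≫ c V) (hb h) (hc' V') (hcart h) (hφ V' V h))
    (fun {V' V} h n hn g => by
      obtain ⟨e₁⟩ := nonempty_iso_of_cart (c V') (hc V') (hc' V')
      obtain ⟨e₂⟩ := nonempty_iso_of_cart (m h ≫ c V) (hb h) (hcart h)
      refine (bijective_restrictD_map V'.1.ι (M V') ((M V)⟦n⟧) (hM V')).1 ?_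
      dsimp only
      rw [Functor.map_zero]
      have h1 := neg V' n hn (e₁.inv ≫ (restrictD V'.1.ι).map g ≫
        ((restrictD V'.1.ι).commShiftIso n).hom.app (M V) ≫ e₂.hom⟦n⟧')
      rw [Iso.inv_comp_eq, comp_zero] at h1
      rw [← cancel_mono (((restrictD V'.1.ι).commShiftIso n).hom.app (M V) ≫ e₂.hom⟦n⟧'), h1,
        zero_comp])
  have hex2 : ∀ V : B, ∃ d : (⟨V.1.toScheme, K V⟩ : Tot dPull.{u}) ⟶ ⟨X, L⟩,
      d.base = V.1.ι ∧ IsCart d ∧ d ≫ ver (ψ V) = c V := fun V =>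
    exists_lift_cart (ψ V) (hψ V) (c V) (hc V) (hc' V)
  choose d hd hd' hd'' using hex2
  refine ⟨L, d, hd, hd', hL, fun {V' V} h => ?_⟩
  refine cancel_ver (ψ V') (hψ V') ?_ (hd V') ?_
  · rw [comp_base, m_base, hd, Scheme.homOfLE_ι]
  · rw [hd'' V']
    have e : ver (P := dPull.{u}) (ψ V') = ver (ψ V) ≫ ver (φ V' V h) := by
      rw [ver_comp_ver, hψ' h]
    rw [e, Category.assoc, ← Category.assoc (d V), hd'' V, ← Category.assoc, hφ V' V h]

end Groth.Agent.Dual.H336.GlueTot
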