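import Groth.Agent.Dual.H336.BBD
import Groth.Agent.Dual.H329.GlueAux
import Groth.Agent.CohtopA.KInjRes2

/-!
# The Hom-sheaf property and gluing of objects of `D(O_X)`, unconditionally

* `isoOver_incC`, `suppIn_EC`: `E_U A ⟶ A` is an isomorphism over `U` and `E_U A` is supported on `U`.
* `hs X : HS X`.
* `exists_glue`, `exists_hom`: the unconditional theorems.
-/

set_option autoImplicit false
universe u
open CategoryTheory CategoryTheory.Limits AlgebraicGeometry
attribute [local instance] HasDerivedCategory.standard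

namespace Groth.Agent.Dual.H336.HSAll
open Groth.Agent.PerfA.Restrict Groth.Agent.PerfA Groth.Agent.Dual.H336.StalkIso
open Groth.Agent.Dual.H336.ColimStalk Groth.Agent.Dual.H336.BBD Groth.Agent.CohqB
open Groth.Agent.PerfA.StalkExact Groth.Agent.PerfC.ExtZero
open Groth.Agent.Dual.H329.EHom Groth.Agent.Dual.H329.CochSheaf Groth.Agent.Dual.H329.GlueAux

variable {X : Scheme.{u}}

lemma isoAt_Q_map (x : X) {A B : CochainComplex X.Modules ℤ} (f : A ⟶ B)
    (h : ∀ p, IsIso ((stalkAb x).map (f.f p))) : IsoAt x (DerivedCategory.Q.map f) := by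
  intro n
  refine (NatIso.isIso_map_iff (shqIso x n) f).1 ?_
  change IsIso ((stalkAb x).map (ShortComplex.homologyMap
    ((HomologicalComplex.shortComplexFunctor X.Modules (ComplexShape.up ℤ) n).map f)))
  refine (NatIso.isIso_map_iff (ShortComplex.homologyFunctorIso (stalkAb x))
    ((HomologicalComplex.shortComplexFunctor X.Modules (ComplexShape.up ℤ) n).map f)).1 ?_
  have : IsIso ((stalkAb x).mapShortComplex.map
      ((HomologicalComplex.shortComplexFunctor X.Modules (ComplexShape.up ℤ) n).map f)) := by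
    have h1 := h ((ComplexShape.up ℤ).prev n)
    have h2 := h n
    have h3 := h ((ComplexShape.up ℤ).next n)
    refine @ShortComplex.isIso_of_isIso _ _ _ _ _ _ ?_ ?_ ?_
    · exact h1
    · exact h2
    · exact h3
  exact inferInstanceAs (IsIso ((ShortComplex.homologyFunctor Ab.{u}).map
    ((stalkAb x).mapShortComplex.map
      ((HomologicalComplex.shortComplexFunctor X.Modules (ComplexShape.up ℤ) n).map f))))

lemma zeroAt_Q (x : X) {A : CochainComplex X.Modules ℤ}
    (h : ∀ p, IsZero ((stalkAb x).obj (A.X p))) : ZeroAt x (DerivedCategory.Q.obj A) := by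
  intro n
  refine IsZero.of_iso ?_ ((shqIso x n).app A).symm
  change IsZero ((stalkAb x).obj (ShortComplex.homology
    ((HomologicalComplex.shortComplexFunctor X.Modules (ComplexShape.up ℤ) n).obj A)))
  refine IsZero.of_iso ?_ ((ShortComplex.homologyFunctorIso (stalkAb x)).app
    ((HomologicalComplex.shortComplexFunctor X.Modules (ComplexShape.up ℤ) n).obj A)).symm
  exact ShortComplex.isZero_homology_of_isZero_X₂ _ (h n)

lemma isIso_stalk_inc (U : X.Opens) (N : X.Modules) {x : X} (hx : x ∈ U) :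
    IsIso ((stalkAb x).map (inc U N)) := by
  have h1 : IsIso ((Scheme.Modules.restrictFunctor U.ι).map (inc U N)) := by
    rw [Scheme.Modules.Hom.isIso_iff_isIso_app]
    intro V
    rw [ConcreteCategory.isIso_iff_bijective]
    refine incl_app_bijective_of_le U N (V := U.ι ''ᵁ V) ?_
    have := Scheme.Hom.image_le_opensRange U.ι V
    rwa [Scheme.Opens.opensRange_ι] at this
  have h2 := (NatIso.isIso_map_iff (stalkRestrict U.ι ⟨x, hx⟩) (inc U N)).1
    (inferInstanceAs (IsIso ((stalkAb (X := U) ⟨x, hx⟩).map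
      ((Scheme.Modules.restrictFunctor U.ι).map (inc U N)))))
  exact h2

lemma isoOver_incC (U : X.Opens) (A : CochainComplex X.Modules ℤ) :
    IsoOver U (DerivedCategory.Q.map (incC U A)) := fun x hx =>
  isoAt_Q_map x _ fun p => isIso_stalk_inc U (A.X p) hx

lemma suppIn_EC (U : X.Opens) (A : CochainComplex X.Modules ℤ) :
    SuppIn U (DerivedCategory.Q.obj ((EC U).obj A)) := fun x hx =>
  zeroAt_Q x fun p => (DevSupport.not_mem_support_iff_isZero (T U (A.X p)) x).1
    fun h => hx (Groth.Agent.PerfC.ExtZeroD.support_subset_of_suppIn (suppIn_T U (A.X p)) h)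

/-- **The Hom-sheaf property.** -/
theorem hs (X : Scheme.{u}) : HS X := by
  intro K L B hB hK A a hA ha hneg g hg
  have : IsGrothendieckAbelian.{u} X.Modules := Groth.Agent.Dcoh.DerSch.isGrothendieckAbelian X
  -- representatives
  let A₀ := DerivedCategory.Q.objPreimage K
  let eK : DerivedCategory.Q.obj A₀ ≅ K := DerivedCategory.Q.objObjPreimageIso K
  obtain ⟨M, r, hM, hr, -, hMi⟩ := CohtopA.KInjRes2.exists_kInjective_resolution.{u}
    (DerivedCategory.Q.objPreimage L)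
  let eL : L ≅ DerivedCategory.Q.obj M :=
    (DerivedCategory.Q.objObjPreimageIso L).symm ≪≫ asIso (DerivedCategory.Q.map r)
  -- the isomorphisms `Q (E_V A₀) ≅ A V`
  have hθ : ∀ V : B, ∃ θ : DerivedCategory.Q.obj ((EC V.1).obj A₀) ⟶ A V,
      θ ≫ a V = DerivedCategory.Q.map (incC V.1 A₀) ≫ eK.hom := fun V =>
    exists_lift (suppIn_EC V.1 A₀) (a V) (ha V) _
  choose θ hθ using hθ
  have hθi : ∀ V : B, IsIso (θ V) := fun V => by
    refine isIso_of_suppIn (θ V) (suppIn_EC V.1 A₀) (hA V) (IsoOver.of_comp_right (ha V) ?_)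
    rw [hθ]
    exact (isoOver_incC V.1 A₀).comp fun x _ => isoAt_of_isIso x _
  have hcomp : ∀ V' V : B, ∀ h : V'.1 ≤ V.1,
      DerivedCategory.Q.map ((cC h).app A₀) ≫ θ V ≫ g V = θ V' ≫ g V' := by
    intro V' V h
    have e := hg V' V h (inv (θ V') ≫ DerivedCategory.Q.map ((cC h).app A₀) ≫ θ V) (by
      rw [Category.assoc, Category.assoc, hθ, ← Category.assoc (DerivedCategory.Q.map _),
        ← Functor.map_comp, cC_incC, ← hθ V', IsIso.inv_hom_id_assoc])
    rw [← e, Category.assoc, Category.assoc, IsIso.hom_inv_id_assoc]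
  have hle : ∀ V : B, V.1 ≤ sSup B := fun V => le_sSup V.2
  have hsup : sSup B ≤ ⨆ V : B, V.1 := by rw [sSup_eq_iSup']
  have hn : ∀ (V : B) (U : X.Opens), U ≤ V.1 →
      ∀ f : DerivedCategory.Q.obj ((EC U).obj A₀) ⟶ (DerivedCategory.Q.obj M)⟦(-1 : ℤ)⟧,
        f = 0 := by
    intro V U hU f
    let U' : B := ⟨U, hB V.1 V.2 U hU⟩
    have h1 := hneg U' (-1) (by norm_num) (inv (θ U') ≫ f ≫ eL.inv⟦(-1 : ℤ)⟧')
    rw [IsIso.inv_comp_eq, comp_zero] at h1
    exact (cancel_mono (eL.inv⟦(-1 : ℤ)⟧')).1 (h1.trans zero_comp.symm)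
  -- existence
  obtain ⟨γ, hγ⟩ := Groth.Agent.Dual.H329.GlueAux.exists_glue (A := A₀) (M := M) hMi (fun V : B => V.1) hn hle hsup
    (fun V => θ V ≫ g V ≫ eL.hom) (fun V V' => by
      let W : B := ⟨V.1 ⊓ V'.1, hB V.1 V.2 _ inf_le_left⟩
      have e := congrArg (· ≫ eL.hom)
        ((hcomp W V inf_le_left).trans (hcomp W V' inf_le_right).symm)
      simpa only [Category.assoc] using e)
  have hι : IsIso (DerivedCategory.Q.map (incC (sSup B) A₀)) :=
    isIso_of_suppIn _ (suppIn_EC _ A₀) (hK.of_iso eK.symm) (isoOver_incC _ A₀)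
  have key : ∀ V : B, a V = inv (θ V) ≫ DerivedCategory.Q.map ((cC (hle V)).app A₀) ≫
      DerivedCategory.Q.map (incC (sSup B) A₀) ≫ eK.hom := fun V => by
    rw [← Category.assoc (DerivedCategory.Q.map _), ← Functor.map_comp, cC_incC, ← hθ V,
      IsIso.inv_hom_id_assoc]
  refine ⟨eK.inv ≫ inv (DerivedCategory.Q.map (incC (sSup B) A₀)) ≫ γ ≫ eL.inv, fun V => ?_,
    fun h hh => ?_⟩
  · rw [key V]
    simp only [Category.assoc, Iso.hom_inv_id_assoc, IsIso.hom_inv_id_assoc]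
    rw [← Category.assoc (DerivedCategory.Q.map _), hγ V]
    simp
  · have h1 : ∀ V : B, DerivedCategory.Q.map ((cC (hle V)).app A₀) ≫
        (DerivedCategory.Q.map (incC (sSup B) A₀) ≫ eK.hom ≫ h ≫ eL.hom) =
        DerivedCategory.Q.map ((cC (hle V)).app A₀) ≫ γ := fun V => by
      have e1 : a V ≫ h = g V := hh V
      rw [hγ V, ← e1, key V]
      simp only [Category.assoc, IsIso.hom_inv_id_assoc]
    have h2 := Groth.Agent.Dual.H329.GlueAux.eq_of_cover (A := A₀) (M := M) hMi (fun V : B => V.1) hn hle hsup _ _ h1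
    rw [← h2]
    simp

/-- **Gluing of objects**, unconditionally. -/
theorem exists_glue (D : Datum X) : ∃ (L : DCoh.D X) (ψ : ∀ V : D.B, D.K V ⟶ L),
    SuppIn (sSup D.B) L ∧ (∀ V : D.B, IsoOver V.1 (ψ V)) ∧
      ∀ {V' V : D.B} (h : V'.1 ≤ V.1), D.φ h ≫ ψ V = ψ V' :=
  D.exists_glue (hs X)

/-- Gluing of objects, with the properties of morphisms and objects stated with `restrictD` and
`supp`. -/
theorem exists_glue' (B : Set X.Opens) (hB : ∀ V ∈ B, ∀ V' ≤ V, V' ∈ B) (K : B → DCoh.D X)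
    (hK : ∀ (V : B) (n : ℤ), Groth.Agent.PerfC.Supp.supp (K V) n ⊆ (V.1 : Set X))
    (φ : ∀ {V' V : B}, V'.1 ≤ V.1 → (K V' ⟶ K V))
    (φ_comp : ∀ {V'' V' V : B} (h : V''.1 ≤ V'.1) (h' : V'.1 ≤ V.1),
      φ h ≫ φ h' = φ (h.trans h'))
    (φ_iso : ∀ {V' V : B} (h : V'.1 ≤ V.1), IsIso ((restrictD V'.1.ι).map (φ h)))
    (neg : ∀ {V' V : B}, V'.1 ≤ V.1 → ∀ n : ℤ, n < 0 → ∀ g : K V' ⟶ (K V)⟦n⟧, g = 0) :
    ∃ (L : DCoh.D X) (ψ : ∀ V : B, K V ⟶ L),
      (∀ n, Groth.Agent.PerfC.Supp.supp L n ⊆ ((sSup B : X.Opens) : Set X)) ∧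
        (∀ V : B, IsIso ((restrictD V.1.ι).map (ψ V))) ∧
          ∀ {V' V : B} (h : V'.1 ≤ V.1), φ h ≫ ψ V = ψ V' := by
  obtain ⟨L, ψ, h1, h2, h3⟩ := exists_glue
    { B := B
      down := hB
      K := K
      supp := fun V => (suppIn_iff _ _).2 (hK V)
      φ := φ
      φ_comp := φ_comp
      φ_iso := fun h => (isoOver_iff _ _).2 (φ_iso h)
      neg := neg : Datum X }
  exact ⟨L, ψ, (suppIn_iff _ _).1 h1, fun V => (isoOver_iff _ _).1 (h2 V), h3⟩

end Groth.Agent.Dual.H336.HSAll
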