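import Groth.Agent.Dual.H310.Indep
import Groth.Agent.Dual.H336.CanSysDef
import Groth.Agent.Dual.H364.DualUniq
import Groth.Agent.Dual.H365.DualSchLocal
import Groth.Agent.Dual.H329.Van
import Groth.Agent.S1810

/-!
# Dualizing complexes by gluing

* `neg`: `Hom(K, K[n]) = 0` for `n < 0` and `K` dualizing on a locally Noetherian scheme;
* `isDualizingSch_of_opens`;
* `main`: the dualizing complex on `X` glued from such a system.
-/

set_option autoImplicit false
universe u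
open CategoryTheory CategoryTheory.Limits AlgebraicGeometry
attribute [local instance] HasDerivedCategory.standard

namespace Groth.Agent.Dual.H336.S3636End
open Groth.Agent.PerfA.Restrict Groth.Agent.PerfA Groth.Agent.PerfC.Supp
open Groth.Agent.PerfB.BCTot Groth.Agent.PerfB.BCTot.Tot
open Groth.Agent.PerfB.BCSch Groth.Agent.Dual.H336.GlueTot Groth.Agent.Dual.H336.CanSysDef
open Groth.Agent.PerfC.RHomD Groth.Agent.PerfC.DTens Groth.Agent.Dual.H329
open Groth.Agent.Dual.H364 Groth.Agent.LoccohB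

attribute [local instance] Groth.Agent.PerfB.BCSch.hasLpull

variable [∀ (U V : Scheme.{u}) (j : U ⟶ V) [IsOpenImmersion j],
    PreservesFiniteLimits (Scheme.Modules.restrictFunctor j)]
  [∀ (R : CommRingCat.{u}), PreservesFiniteLimits (tilde.functor R)]
variable {X : Scheme.{u}}

theorem isDualizingSch_of_iso {K L : DCoh.D X} (e : K ≅ L) (hK : Dual2.IsDualizingSch X K) :
    Dual2.IsDualizingSch X L := by
  intro A _ j _
  obtain ⟨ω, hω, ⟨e'⟩⟩ := hK A j
  exact ⟨ω, hω, ⟨(DCoh.restrictD j).mapIso e.symm ≪≫ e'⟩⟩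

/-- Being dualizing is local for open covers. -/
theorem isDualizingSch_of_opens [IsLocallyNoetherian X] (L : DCoh.D X)
    (h : ∀ x : X, ∃ V : X.Opens, x ∈ V ∧
      Dual2.IsDualizingSch V.toScheme ((restrictD V.ι).obj L)) : Dual2.IsDualizingSch X L := by
  refine Groth.Agent.Dual.H365.DualSchLocal.isDualizingSch_of_local L fun x => ?_
  obtain ⟨V, hx, hV⟩ := h x
  obtain ⟨A, _, j, _, y, hy⟩ := BiGlobal.exists_affine V.toScheme ⟨x, hx⟩
  obtain ⟨ω, hω, ⟨e⟩⟩ := hV A j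
  refine ⟨A, inferInstance, j ≫ V.ι, inferInstance, ω, ⟨y, ?_⟩, hω,
    ⟨(PerfLocal.restrictDComp j V.ι).symm.app L ≪≫ e⟩⟩
  rw [Scheme.Hom.comp_apply, hy]
  rfl

/-- Negative self-extensions of a dualizing complex vanish. -/
theorem neg [IsLocallyNoetherian X] {K : DCoh.D X} (hK : Dual2.IsDualizingSch X K) {n : ℤ}
    (hn : n < 0) (g : K ⟶ K⟦n⟧) : g = 0 := by
  obtain ⟨e⟩ := DualUniq.nonempty_rhSelf_dualizing hK
  obtain ⟨e1⟩ := Van.exists_FS K n
  let E : (K ⟶ K⟦n⟧) ≃ (Van.S X n ⟶ InvD.OO X) :=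
    (Van.shiftEquivHom K K n).symm.trans ((e1.symm.homCongr (Iso.refl _)).trans
      (((rhAdj K).homEquiv _ _).trans ((Iso.refl _).homCongr e)))
  refine E.injective ?_
  have : (Van.S X n).IsLE n := inferInstance
  have : (InvD.OO X).IsGE 0 := inferInstance
  exact (DerivedCategory.TStructure.t.zero_of_isLE_of_isGE _ n 0 hn inferInstance inferInstance).trans
    (DerivedCategory.TStructure.t.zero_of_isLE_of_isGE _ n 0 hn inferInstance inferInstance).symm

/-- **Gluing upper shrieks to a dualizing complex.** -/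
theorem main {S : Scheme.{u}} [IsNoetherian S] (W : DCoh.DQCoh S)
    (hW : Dual2.IsDualizingSch S W.obj) (n : ℤ) (hn : DerivedCategory.IsGE W.obj n) (h : X ⟶ S)
    [LocallyOfFiniteType h] [QuasiCompact h] (hC : CanSys h W) :
    ∃ K : DCoh.D X, Dual2.IsDualizingSch X K ∧ ∀ (U : X.Opens), IsSeparated (U.ι ≫ h) →
      ∀ (c : DEt.Compactification (U.ι ≫ h)) [DCoh.HasRpush c.fbar]
        (hc : DCoh.RpushPreservesQCoh c.fbar) (a : DCoh.DQCoh S ⥤ DCoh.DQCoh c.Xbar),
        (DCoh.RpushQ c.fbar hc ⊣ a) →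
          Nonempty ((DCoh.restrictD U.ι).obj K ≅ (Dual3.shriekC c a).obj W) := by
  obtain ⟨K, m, m_base, m_cart, m_comp, hK⟩ := hC
  have hX : IsNoetherian X := Groth.Agent.Dual.H310.OpenBC.isNoetherian_of_finiteType h
  have hKd : ∀ V : sepOpens h, Dual2.IsDualizingSch V.1.toScheme (K V) := by
    intro V
    obtain ⟨c, _, hc, a, adj, ⟨e⟩⟩ := hK V
    exact isDualizingSch_of_iso e.symm (DualUniq.isDualizingSch_restrict c.j
      (Groth.Agent.S1810.result c.Xbar S c.fbar hc a adj W hW))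
  obtain ⟨L, c, hcb, hcc, -, -⟩ := exists_glueTot (sepOpens h)
    (fun V hV V' hle => mem_sepOpens_of_le h hV hle) K m m_base m_cart m_comp
    (fun V n hn g => neg (hKd V) hn g)
  have hres : ∀ V : sepOpens h, Nonempty ((restrictD V.1.ι).obj L ≅ K V) := fun V =>
    nonempty_iso_of_cart (c V) (hcb V) (hcc V)
  refine ⟨L, isDualizingSch_of_opens L fun x => ?_, fun U hU c _ hc a adj => ?_⟩
  · obtain ⟨V, hV, hx, -⟩ := exists_isAffineOpen_mem_and_subset (U := (⊤ : X.Opens)) (x := x) trivial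
    obtain ⟨e⟩ := hres ⟨V, mem_sepOpens_of_isAffineOpen h hV⟩
    exact ⟨V, hx, isDualizingSch_of_iso e.symm (hKd ⟨V, mem_sepOpens_of_isAffineOpen h hV⟩)⟩
  · obtain ⟨e⟩ := hres ⟨U, hU⟩
    obtain ⟨c₁, _, hc₁, a₁, adj₁, ⟨e₁⟩⟩ := hK ⟨U, hU⟩
    obtain ⟨e₂⟩ := Groth.Agent.Dual.H310.Indep.nonempty_indep c₁ c hc₁ hc a₁ a adj₁ adj
    exact ⟨e ≪≫ e₁ ≪≫ (ObjectProperty.ι _).mapIso (e₂.app ⟨W, n, hn⟩)⟩

end Groth.Agent.Dual.H336.S3636End
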