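import Groth.Agent.PerfC.ExtZeroD
import Groth.Agent.PerfC.MV2

/-!
# Morphisms of `D(O_X)` which are isomorphisms over an open, objects supported on an open

* `IsoAt x f`, `ZeroAt x K`: pointwise notions (stalks of the cohomology sheaves).
* `IsoOver U f` (`↔ IsIso ((restrictD U.ι).map f)`), `SuppIn U K` (`↔ ∀ n, supp K n ⊆ U`).
* `bijective_comp`: if `K` is supported in `U` and `f : G ⟶ G'` is an isomorphism over `U` then
  `Hom(K, G) → Hom(K, G')` is bijective.
* `exists_core`: every `K` has a part supported on `U`.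
* `isoOver_inl_comp`: cones of `M ⟶ E ⊞ K`.
-/

set_option autoImplicit false
universe u
open CategoryTheory CategoryTheory.Limits AlgebraicGeometry Pretriangulated
attribute [local instance] HasDerivedCategory.standard

namespace Groth.Agent.Dual.H336.StalkIso
open Groth.Agent.PerfA.Restrict Groth.Agent.PerfA Groth.Agent.CohqB Groth.Agent.PerfC.Supp
open Groth.Agent.PerfC.ExtZeroD AlgebraicGeometry.Scheme.Modules

variable {X Y : Scheme.{u}}

/-- The stalk of the `n`-th cohomology sheaf. -/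
noncomputable abbrev SH (x : X) (n : ℤ) : DCoh.D X ⥤ Ab.{u} :=
  DerivedCategory.homologyFunctor X.Modules n ⋙ stalkAb x

/-- `f` is an isomorphism at `x`. -/
def IsoAt (x : X) {K L : DCoh.D X} (f : K ⟶ L) : Prop := ∀ n : ℤ, IsIso ((SH x n).map f)

/-- `K` is zero at `x`. -/
def ZeroAt (x : X) (K : DCoh.D X) : Prop := ∀ n : ℤ, IsZero ((SH x n).obj K)

lemma zeroAt_iff (x : X) (K : DCoh.D X) : ZeroAt x K ↔ ∀ n, x ∉ supp K n := by
  simp only [ZeroAt, supp, DevSupport.not_mem_support_iff_isZero]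
  rfl

lemma isoAt_of_isIso (x : X) {K L : DCoh.D X} (f : K ⟶ L) [IsIso f] : IsoAt x f :=
  fun _ => inferInstance

lemma IsoAt.comp {x : X} {K L M : DCoh.D X} {f : K ⟶ L} {g : L ⟶ M} (hf : IsoAt x f)
    (hg : IsoAt x g) : IsoAt x (f ≫ g) := fun n => by
  have := hf n
  have := hg n
  rw [Functor.map_comp]
  infer_instance

lemma IsoAt.of_comp_left {x : X} {K L M : DCoh.D X} {f : K ⟶ L} {g : L ⟶ M} (hf : IsoAt x f)
    (hg : IsoAt x (f ≫ g)) : IsoAt x g := fun n => by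
  have := hf n
  have h := hg n
  rw [Functor.map_comp] at h
  exact IsIso.of_isIso_comp_left ((SH x n).map f) _

lemma IsoAt.of_comp_right {x : X} {K L M : DCoh.D X} {f : K ⟶ L} {g : L ⟶ M} (hg : IsoAt x g)
    (hf : IsoAt x (f ≫ g)) : IsoAt x f := fun n => by
  have := hg n
  have h := hf n
  rw [Functor.map_comp] at h
  exact IsIso.of_isIso_comp_right _ ((SH x n).map g)

lemma IsoAt.of_zeroAt {x : X} {K L : DCoh.D X} (f : K ⟶ L) (hK : ZeroAt x K) (hL : ZeroAt x L) :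
    IsoAt x f := fun n => isIso_of_source_target_iso_zero _ (hK n).isoZero (hL n).isoZero

lemma ZeroAt.of_isoAt {x : X} {K L : DCoh.D X} {f : K ⟶ L} (hf : IsoAt x f) (hK : ZeroAt x K) :
    ZeroAt x L := fun n =>
  have := hf n
  (hK n).of_iso (asIso ((SH x n).map f)).symm

lemma ZeroAt.of_isoAt' {x : X} {K L : DCoh.D X} {f : K ⟶ L} (hf : IsoAt x f) (hL : ZeroAt x L) :
    ZeroAt x K := fun n =>
  have := hf n
  (hL n).of_iso (asIso ((SH x n).map f))

lemma IsoAt.neg {x : X} {K L : DCoh.D X} {f : K ⟶ L} (hf : IsoAt x f) : IsoAt x (-f) := by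
  have : IsIso (-𝟙 L) := ⟨-𝟙 L, by simp, by simp⟩
  have h := hf.comp (isoAt_of_isIso x (-𝟙 L))
  rwa [Preadditive.comp_neg, Category.comp_id] at h

lemma isIso_iff {K L : DCoh.D X} (f : K ⟶ L) : IsIso f ↔ ∀ x : X, IsoAt x f := by
  rw [DerivedCategory.isIso_iff]
  constructor
  · intro h x n
    have := h n
    exact inferInstanceAs (IsIso ((stalkAb x).map _))
  · intro h n
    rw [isIso_iff_stalk]
    exact fun x => h x n

/-- Comparison of the stalk functors for an open immersion. -/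
noncomputable def shRestrict (j : Y ⟶ X) [IsOpenImmersion j] (y : Y) (n : ℤ) :
    restrictD j ⋙ SH y n ≅ SH (j y) n :=
  (Functor.associator _ _ _).symm ≪≫
    Functor.isoWhiskerRight (ExactD.mapHomology (restrictFunctor j) n) (stalkAb y) ≪≫
      Functor.associator _ _ _ ≪≫ Functor.isoWhiskerLeft _ (stalkRestrict j y)

lemma isoAt_restrictD_iff (j : Y ⟶ X) [IsOpenImmersion j] (y : Y) {K L : DCoh.D X} (f : K ⟶ L) :
    IsoAt y ((restrictD j).map f) ↔ IsoAt (j y) f :=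
  forall_congr' fun n => NatIso.isIso_map_iff (shRestrict j y n) f

lemma zeroAt_restrictD_iff (j : Y ⟶ X) [IsOpenImmersion j] (y : Y) (K : DCoh.D X) :
    ZeroAt y ((restrictD j).obj K) ↔ ZeroAt (j y) K :=
  forall_congr' fun n => ((shRestrict j y n).app K).isZero_iff

lemma isIso_restrictD_iff (j : Y ⟶ X) [IsOpenImmersion j] {K L : DCoh.D X} (f : K ⟶ L) :
    IsIso ((restrictD j).map f) ↔ ∀ y : Y, IsoAt (j y) f := by
  rw [isIso_iff]
  exact forall_congr' fun y => isoAt_restrictD_iff j y f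

/-- `f` is an isomorphism over `U`. -/
def IsoOver (U : X.Opens) {K L : DCoh.D X} (f : K ⟶ L) : Prop := ∀ x ∈ U, IsoAt x f

/-- `K` is supported on `U`. -/
def SuppIn (U : X.Opens) (K : DCoh.D X) : Prop := ∀ x ∉ U, ZeroAt x K

lemma isoOver_iff (U : X.Opens) {K L : DCoh.D X} (f : K ⟶ L) :
    IsoOver U f ↔ IsIso ((restrictD U.ι).map f) := by
  rw [isIso_restrictD_iff]
  exact ⟨fun h y => h _ y.2, fun h x hx => h ⟨x, hx⟩⟩

lemma suppIn_iff (U : X.Opens) (K : DCoh.D X) : SuppIn U K ↔ ∀ n, supp K n ⊆ U := by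
  constructor
  · intro h n x hx
    by_contra hxU
    exact (zeroAt_iff x K).1 (h x hxU) n hx
  · intro h x hx
    exact (zeroAt_iff x K).2 fun n hn => hx (h n hn)

lemma SuppIn.mono {U V : X.Opens} (h : U ≤ V) {K : DCoh.D X} (hK : SuppIn U K) : SuppIn V K :=
  fun x hx => hK x fun hx' => hx (h hx')

lemma IsoOver.mono {U V : X.Opens} (h : U ≤ V) {K L : DCoh.D X} {f : K ⟶ L} (hf : IsoOver V f) :
    IsoOver U f := fun x hx => hf x (h hx)

lemma SuppIn.of_iso {U : X.Opens} {K L : DCoh.D X} (hK : SuppIn U K) (e : K ≅ L) : SuppIn U L :=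
  fun x hx => (hK x hx).of_isoAt (isoAt_of_isIso x e.hom)

lemma suppIn_range (U : X.Opens) {K : DCoh.D X} (hK : SuppIn U K) :
    ∀ n, supp K n ⊆ Set.range U.ι := fun n => by
  rw [Scheme.Opens.range_ι]
  exact (suppIn_iff U K).1 hK n

lemma isIso_of_suppIn {U : X.Opens} {K L : DCoh.D X} (f : K ⟶ L) (hK : SuppIn U K)
    (hL : SuppIn U L) (hf : IsoOver U f) : IsIso f := by
  rw [isIso_iff]
  intro x
  by_cases hx : x ∈ U
  · exact hf x hx
  · exact .of_zeroAt f (hK x hx) (hL x hx)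

/-- `Hom(K, G) → Hom(K, G')` is bijective if `K` is supported on `U` and `G ⟶ G'` is an isomorphism
over `U`. -/
lemma bijective_comp {U : X.Opens} {K G G' : DCoh.D X} (hK : SuppIn U K) (f : G ⟶ G')
    (hf : IsoOver U f) : Function.Bijective (fun g : K ⟶ G => g ≫ f) := by
  have h1 := bijective_restrictD_map U.ι K G (suppIn_range U hK)
  have h2 := bijective_restrictD_map U.ι K G' (suppIn_range U hK)
  have h3 : IsIso ((restrictD U.ι).map f) := (isoOver_iff U f).1 hf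
  have h4 : Function.Bijective (fun g : (restrictD U.ι).obj K ⟶ (restrictD U.ι).obj G =>
      g ≫ (restrictD U.ι).map f) :=
    ⟨fun a b h => (cancel_mono _).1 h, fun a => ⟨a ≫ inv ((restrictD U.ι).map f), by simp⟩⟩
  have h5 : (fun g : K ⟶ G' => (restrictD U.ι).map g) ∘ (fun g : K ⟶ G => g ≫ f) =
      (fun g : (restrictD U.ι).obj K ⟶ (restrictD U.ι).obj G => g ≫ (restrictD U.ι).map f) ∘
        (fun g : K ⟶ G => (restrictD U.ι).map g) := by
    funext g
    exact Functor.map_comp _ _ _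
  have h6 := h4.comp h1
  rw [← h5] at h6
  exact (Function.Bijective.of_comp_iff' h2 _).1 h6

lemma hom_ext {U : X.Opens} {K G G' : DCoh.D X} (hK : SuppIn U K) (f : G ⟶ G')
    (hf : IsoOver U f) {a b : K ⟶ G} (h : a ≫ f = b ≫ f) : a = b :=
  (bijective_comp hK f hf).1 h

lemma exists_lift {U : X.Opens} {K G G' : DCoh.D X} (hK : SuppIn U K) (f : G ⟶ G')
    (hf : IsoOver U f) (a : K ⟶ G') : ∃ b : K ⟶ G, b ≫ f = a :=
  (bijective_comp hK f hf).2 a

/-- The part of `K` supported on `U`. -/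
lemma exists_core (U : X.Opens) (K : DCoh.D X) :
    ∃ (A : DCoh.D X) (k : A ⟶ K), SuppIn U A ∧ IsoOver U k := by
  refine ⟨(shriekD U.ι).obj ((restrictD U.ι).obj K), (adjunction U.ι).counit.app K, ?_, ?_⟩
  · rw [suppIn_iff]
    intro n
    have := supp_shriekD_subset_range U.ι ((restrictD U.ι).obj K) n
    rwa [Scheme.Opens.range_ι] at this
  · rw [isoOver_iff]
    infer_instance

lemma shift_isoAt {x : X} {K L : DCoh.D X} {f : K ⟶ L} (hf : IsoAt x f) (k : ℤ) :
    IsoAt x (f⟦k⟧') := fun n => by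
  have h := hf (k + n)
  have e := ((DerivedCategory.homologyFunctor X.Modules 0).shiftIso k n (k + n) rfl)
  have e' : shiftFunctor (DCoh.D X) k ⋙ SH x n ≅ SH x (k + n) :=
    (Functor.associator _ _ _).symm ≪≫ Functor.isoWhiskerRight e (stalkAb x)
  exact (NatIso.isIso_map_iff e' f).2 h

lemma IsoOver.shift {U : X.Opens} {K L : DCoh.D X} {f : K ⟶ L} (hf : IsoOver U f) (k : ℤ) :
    IsoOver U (f⟦k⟧') := fun x hx => shift_isoAt (hf x hx) k

lemma IsoOver.comp {U : X.Opens} {K L M : DCoh.D X} {f : K ⟶ L} {g : L ⟶ M} (hf : IsoOver U f)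
    (hg : IsoOver U g) : IsoOver U (f ≫ g) := fun x hx => (hf x hx).comp (hg x hx)

lemma IsoOver.of_comp_left {U : X.Opens} {K L M : DCoh.D X} {f : K ⟶ L} {g : L ⟶ M}
    (hf : IsoOver U f) (hg : IsoOver U (f ≫ g)) : IsoOver U g :=
  fun x hx => (hf x hx).of_comp_left (hg x hx)

lemma IsoOver.of_comp_right {U : X.Opens} {K L M : DCoh.D X} {f : K ⟶ L} {g : L ⟶ M}
    (hg : IsoOver U g) (hf : IsoOver U (f ≫ g)) : IsoOver U f :=
  fun x hx => (hg x hx).of_comp_right (hf x hx)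

/-- In a triangle `M ⟶ E ⊞ K ⟶ C`, the map `E ⟶ C` is an isomorphism wherever `M ⟶ K` is. -/
lemma isoOver_inl_comp {U : X.Opens} {M E K C : DCoh.D X} {a : M ⟶ E} {b : M ⟶ K}
    {π : E ⊞ K ⟶ C} {δ : C ⟶ M⟦(1 : ℤ)⟧}
    (hT : Triangle.mk (biprod.lift a b) π δ ∈ distTriang (DCoh.D X)) (hb : IsoOver U b) :
    IsoOver U (biprod.inl ≫ π) := by
  rw [isoOver_iff] at hb ⊢
  refine Groth.Agent.PerfC.MV.isIso_map_inl_comp (restrictD U.ι) hT biprod.inl biprod.inr
    biprod.fst biprod.snd biprod.inl_fst biprod.inl_snd biprod.total ?_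
  rwa [biprod.lift_snd]

lemma isoOver_inr_comp {U : X.Opens} {M E K C : DCoh.D X} {a : M ⟶ E} {b : M ⟶ K}
    {π : E ⊞ K ⟶ C} {δ : C ⟶ M⟦(1 : ℤ)⟧}
    (hT : Triangle.mk (biprod.lift a b) π δ ∈ distTriang (DCoh.D X)) (ha : IsoOver U a) :
    IsoOver U (biprod.inr ≫ π) := by
  rw [isoOver_iff] at ha ⊢
  refine Groth.Agent.PerfC.MV.isIso_map_inl_comp (restrictD U.ι) hT biprod.inr biprod.inl
    biprod.snd biprod.fst biprod.inr_snd biprod.inr_fst ((add_comm _ _).trans biprod.total) ?_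
  rwa [biprod.lift_fst]

/-- Support of a cone. -/
lemma suppIn_cone {U : X.Opens} {M E C : DCoh.D X} {a : M ⟶ E} {π : E ⟶ C} {δ : C ⟶ M⟦(1 : ℤ)⟧}
    (hT : Triangle.mk a π δ ∈ distTriang (DCoh.D X)) (hM : SuppIn U M) (hE : SuppIn U E) :
    SuppIn U C := by
  rw [suppIn_iff] at hM hE ⊢
  intro n
  exact (supp_obj₃ _ hT n (n + 1) rfl).trans (Set.union_subset (hE n) (hM (n + 1)))

lemma suppIn_biprod {U : X.Opens} {K L : DCoh.D X} (hK : SuppIn U K) (hL : SuppIn U L) :
    SuppIn U (K ⊞ L) := fun x hx n =>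
  have : PreservesBinaryBiproducts (SH x n) := preservesBinaryBiproducts_of_preservesBiproducts _
  (biprod_isZero_iff _ _ |>.2 ⟨hK x hx n, hL x hx n⟩).of_iso ((SH x n).mapBiprod K L)

end Groth.Agent.Dual.H336.StalkIso
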